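import Mathlib.GroupTheory.Perm.Sign
import Mathlib.GroupTheory.GroupAction.Quotient
import Mathlib.GroupTheory.SpecificGroups.Alternating
import Mathlib.Tactic.Linarith
import Mathlib.Tactic.Ring

/-!
Orders of abelian permutation groups: the product of the orbit lengths bounds the order, and the
largest product of positive integers with a given sum.
-/

set_option autoImplicit false

namespace CfsgLib.AbelianPerm

/-- The largest product of positive integers with sum `n`. -/
def maxProd : ℕ → ℕ
  | 0 => 1
  | 1 => 1
  | 2 => 2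
  | 3 => 3
  | 4 => 4
  | (n + 5) => 3 * maxProd (n + 2)

theorem maxProd_add_three (n : ℕ) (hn : 2 ≤ n) : maxProd (n + 3) = 3 * maxProd n := by
  obtain ⟨m, rfl⟩ : ∃ m, n = m + 2 := ⟨n - 2, by omega⟩
  rw [maxProd]

theorem three_mul_le (n : ℕ) : 3 * maxProd n ≤ maxProd (n + 3) := by
  match n with
  | 0 => decide
  | 1 => decide
  | (m + 2) => rw [maxProd_add_three (m + 2) (by omega)]

theorem le_succ (n : ℕ) : maxProd n ≤ maxProd (n + 1) := by
  induction n using Nat.strong_induction_on with
  | _ n ih =>
    match n with
    | 0 => decide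
    | 1 => decide
    | 2 => decide
    | 3 => decide
    | 4 => decide
    | (m + 5) =>
      rw [maxProd, maxProd]
      exact Nat.mul_le_mul_left 3 (ih (m + 2) (by omega))

theorem two_mul_le (n : ℕ) : 2 * maxProd n ≤ maxProd (n + 2) := by
  induction n using Nat.strong_induction_on with
  | _ n ih =>
    match n with
    | 0 => decide
    | 1 => decide
    | 2 => decide
    | 3 => decide
    | 4 => decide
    | (m + 5) =>
      have h1 : maxProd (m + 5 + 2) = 3 * maxProd (m + 4) := by rw [maxProd]
      have := ih (m + 2) (by omega)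
      rw [show m + 2 + 2 = m + 4 by omega] at this
      rw [h1, maxProd]
      omega

theorem four_mul_le (n : ℕ) : 4 * maxProd n ≤ maxProd (n + 4) := by
  have h1 := two_mul_le n
  have h2 := two_mul_le (n + 2)
  show _ ≤ maxProd (n + 2 + 2)
  omega

theorem mul_le (a : ℕ) : ∀ n, a * maxProd n ≤ maxProd (a + n) := by
  induction a using Nat.strong_induction_on with
  | _ a ih =>
    intro n
    match a with
    | 0 => simp
    | 1 => rw [one_mul, add_comm]; exact le_succ n
    | 2 => rw [add_comm]; exact two_mul_le n
    | 3 => rw [add_comm]; exact three_mul_le n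
    | 4 => rw [add_comm]; exact four_mul_le n
    | (b + 5) =>
      calc (b + 5) * maxProd n ≤ 3 * ((b + 2) * maxProd n) := by
            rw [← mul_assoc]; exact Nat.mul_le_mul_right _ (by omega)
        _ ≤ 3 * maxProd (b + 2 + n) := Nat.mul_le_mul_left 3 (ih (b + 2) (by omega) n)
        _ ≤ maxProd (b + 5 + n) := by
            rw [show b + 5 + n = b + 2 + n + 3 by omega]; exact three_mul_le _

theorem prod_le (m : Multiset ℕ) : m.prod ≤ maxProd m.sum := by
  induction m using Multiset.induction with
  | empty => simp [maxProd]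
  | cons a s ih =>
    rw [Multiset.prod_cons, Multiset.sum_cons]
    exact (Nat.mul_le_mul_left a ih).trans (mul_le a _)

theorem maxProd_three_mul (k : ℕ) : maxProd (3 * k) = 3 ^ k := by
  induction k with
  | zero => rfl
  | succ k ih =>
    match k with
    | 0 => rfl
    | (j + 1) =>
      rw [show 3 * (j + 1 + 1) = 3 * (j + 1) + 3 by ring, maxProd_add_three _ (by omega), ih]
      ring

theorem maxProd_three_mul_add_one (k : ℕ) : maxProd (3 * k + 4) = 4 * 3 ^ k := by
  induction k with
  | zero => rfl
  | succ k ih =>
    rw [show 3 * (k + 1) + 4 = 3 * k + 4 + 3 by ring, maxProd_add_three _ (by omega), ih]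
    ring

theorem maxProd_three_mul_add_two (k : ℕ) : maxProd (3 * k + 2) = 2 * 3 ^ k := by
  induction k with
  | zero => rfl
  | succ k ih =>
    rw [show 3 * (k + 1) + 2 = 3 * k + 2 + 3 by ring, maxProd_add_three _ (by omega), ih]
    ring

/-- Without parts equal to `2` the product of parts with sum `3k + 8` is at most `16·3^k`. -/
theorem prod_le_of_two_notMem (k : ℕ) (m : Multiset ℕ) (hs : m.sum = 3 * k + 8) (h2 : 2 ∉ m) :
    m.prod ≤ 16 * 3 ^ k := by
  classical
  by_cases h4 : 4 ∈ m
  · have e := Multiset.cons_erase h4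
    have e1 := congrArg Multiset.sum e
    have e2 := congrArg Multiset.prod e
    rw [Multiset.sum_cons] at e1
    rw [Multiset.prod_cons] at e2
    have := prod_le (m.erase 4)
    rw [show (m.erase 4).sum = 3 * k + 4 by omega, maxProd_three_mul_add_one] at this
    rw [← e2]
    omega
  by_cases h1 : 1 ∈ m
  · have e := Multiset.cons_erase h1
    have e1 := congrArg Multiset.sum e
    have e2 := congrArg Multiset.prod e
    rw [Multiset.sum_cons] at e1
    rw [Multiset.prod_cons, one_mul] at e2
    have := prod_le (m.erase 1)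
    rw [show (m.erase 1).sum = 3 * (k + 1) + 4 by omega, maxProd_three_mul_add_one, pow_succ] at this
    rw [← e2]
    omega
  by_cases h0 : 0 ∈ m
  · rw [Multiset.prod_eq_zero h0]; exact Nat.zero_le _
  by_cases h5 : ∃ a ∈ m, 5 ≤ a
  · obtain ⟨a, ha, ha5⟩ := h5
    have e := Multiset.cons_erase ha
    have e1 := congrArg Multiset.sum e
    have e2 := congrArg Multiset.prod e
    rw [Multiset.sum_cons] at e1
    rw [Multiset.prod_cons] at e2
    have hle := Nat.mul_le_mul_left a (prod_le (m.erase a))
    rw [e2] at hle
    refine hle.trans ?_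
    have h3 : maxProd (3 * k + 3) = 3 * 3 ^ k := by
      rw [show 3 * k + 3 = 3 * (k + 1) by ring, maxProd_three_mul, pow_succ']
    have h22 : maxProd (3 * k + 2) = 2 * 3 ^ k := maxProd_three_mul_add_two k
    rcases (show a = 5 ∨ a = 6 ∨ 7 ≤ a by omega) with rfl | rfl | h7
    · rw [show (m.erase 5).sum = 3 * k + 3 by omega, h3]; omega
    · rw [show (m.erase 6).sum = 3 * k + 2 by omega, h22]; omega
    · calc a * maxProd (m.erase a).sum ≤ 5 * ((a - 5) * maxProd (m.erase a).sum) := by
            rw [← mul_assoc]; exact Nat.mul_le_mul_right _ (by omega)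
        _ ≤ 5 * maxProd (a - 5 + (m.erase a).sum) := Nat.mul_le_mul_left 5 (mul_le _ _)
        _ ≤ 16 * 3 ^ k := by
            rw [show a - 5 + (m.erase a).sum = 3 * k + 3 by omega, h3]; omega
  · exfalso
    have h3 : ∀ a ∈ m, a = 3 := fun a ha => by
      by_contra hne
      rcases (show a = 0 ∨ a = 1 ∨ a = 2 ∨ a = 4 ∨ 5 ≤ a by omega) with r | r | r | r | r
      · exact h0 (r ▸ ha)
      · exact h1 (r ▸ ha)
      · exact h2 (r ▸ ha)
      · exact h4 (r ▸ ha)
      · exact h5 ⟨a, ha, r⟩
    have := Multiset.eq_replicate_card.2 h3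
    rw [this, Multiset.sum_replicate, smul_eq_mul] at hs
    omega

variable {α : Type*} [Fintype α] (A : Subgroup (Equiv.Perm α))

/-- The orbit lengths of a permutation group. -/
noncomputable def orbitCards : Multiset ℕ := by
  classical
  exact (Finset.univ : Finset (MulAction.orbitRel.Quotient A α)).val.map fun O => Nat.card O.orbit

theorem sum_orbitCards : (orbitCards A).sum = Fintype.card α := by
  classical
  rw [orbitCards]
  show ∑ O : MulAction.orbitRel.Quotient A α, Nat.card O.orbit = _
  rw [← Nat.card_sigma, ← Nat.card_eq_fintype_card]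
  exact (Nat.card_congr (MulAction.selfEquivSigmaOrbits' A α)).symm

/-- The value at a representative of each orbit. -/
noncomputable def values (a : A) :
    (O : MulAction.orbitRel.Quotient A α) → O.orbit := fun O =>
  ⟨a • Quotient.out O, by
    rw [MulAction.orbitRel.Quotient.orbit_eq_orbit_out O Quotient.out_eq']
    exact MulAction.mem_orbit _ a⟩

theorem smul_eq_of_values (hA : IsMulCommutative A) {a b : A} {x : α}
    (h : a • Quotient.out (Quotient.mk'' x : MulAction.orbitRel.Quotient A α) =
      b • Quotient.out (Quotient.mk'' x : MulAction.orbitRel.Quotient A α)) : a • x = b • x := by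
  obtain ⟨c, hc⟩ := MulAction.orbitRel_apply.1
    (Quotient.exact' (Quotient.out_eq' (Quotient.mk'' x : MulAction.orbitRel.Quotient A α)))
  have hcomm : ∀ u v : A, u * v = v * u := hA.is_comm.comm
  have hx : x = c⁻¹ • Quotient.out (Quotient.mk'' x : MulAction.orbitRel.Quotient A α) := by
    rw [← hc, inv_smul_smul]
  rw [hx, smul_smul, smul_smul, hcomm a, hcomm b, ← smul_smul, ← smul_smul, h]

theorem values_injective (hA : IsMulCommutative A) : Function.Injective (values A) := by
  intro a b h
  refine Subtype.ext (Equiv.ext fun x => ?_)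
  exact smul_eq_of_values A hA (congrArg Subtype.val (congrFun h _))

theorem card_le_prod (hA : IsMulCommutative A) : Nat.card A ≤ (orbitCards A).prod := by
  classical
  rw [orbitCards]
  show _ ≤ ∏ O : MulAction.orbitRel.Quotient A α, Nat.card O.orbit
  rw [← Nat.card_pi]
  exact Nat.card_le_card_of_injective _ (values_injective A hA)

theorem card_dvd_prod (hA : IsMulCommutative A) : Nat.card A ∣ (orbitCards A).prod := by
  classical
  haveI hn : ∀ H : Subgroup A, H.Normal := fun H => ⟨fun h hh g => by
    rwa [hA.is_comm.comm g h, mul_inv_cancel_right]⟩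
  let f : A →* ((O : MulAction.orbitRel.Quotient A α) → A ⧸ MulAction.stabilizer A (Quotient.out O)) :=
    Pi.monoidHom fun O => QuotientGroup.mk' _
  have hf : Function.Injective f := by
    refine (injective_iff_map_eq_one f).2 fun a h => Subtype.ext (Equiv.ext fun x => ?_)
    have h1 := (QuotientGroup.eq_one_iff a).1 (congrFun h (Quotient.mk'' x))
    rw [MulAction.mem_stabilizer_iff] at h1
    exact (smul_eq_of_values A hA (b := 1) (h1.trans (one_smul _ _).symm)).trans (one_smul _ _)
  have h := Subgroup.card_dvd_of_injective f hf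
  rw [Nat.card_pi] at h
  rw [orbitCards]
  show _ ∣ ∏ O : MulAction.orbitRel.Quotient A α, Nat.card O.orbit
  convert h using 2 with O
  rw [MulAction.orbitRel.Quotient.orbit_eq_orbit_out O Quotient.out_eq']
  exact Nat.card_congr (MulAction.orbitEquivQuotientStabilizer A (Quotient.out O))

theorem card_le_maxProd (hA : IsMulCommutative A) : Nat.card A ≤ maxProd (Fintype.card α) :=
  (card_le_prod A hA).trans (sum_orbitCards A ▸ prod_le _)

/-- Equality forces a transposition for an orbit of length two. -/
theorem exists_sign_neg [DecidableEq α] (hA : IsMulCommutative A)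
    (heq : Nat.card A = (orbitCards A).prod) (h2 : 2 ∈ orbitCards A) :
    ∃ a ∈ A, Equiv.Perm.sign a = -1 := by
  classical
  have hb : Function.Bijective (values A) := by
    rw [Fintype.bijective_iff_injective_and_card, ← Nat.card_eq_fintype_card,
      ← Nat.card_eq_fintype_card, Nat.card_pi]
    exact ⟨values_injective A hA, heq.trans (by rw [orbitCards]; rfl)⟩
  rw [orbitCards] at h2
  obtain ⟨O, -, hO⟩ := Multiset.mem_map.1 h2
  haveI : Nontrivial O.orbit := Finite.one_lt_card_iff_nontrivial.1 (by omega)
  obtain ⟨y, hy⟩ := exists_ne (values A 1 O)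
  obtain ⟨a, ha⟩ := hb.2 (Function.update (values A 1) O y)
  refine ⟨(a : Equiv.Perm α), a.2, ?_⟩
  have hfix : ∀ x : α, (Quotient.mk'' x : MulAction.orbitRel.Quotient A α) ≠ O → a • x = x := by
    intro x hx
    have := congrFun ha (Quotient.mk'' x)
    rw [Function.update_of_ne hx] at this
    exact (smul_eq_of_values A hA (b := 1) (congrArg Subtype.val this)).trans (one_smul _ _)
  have hsub : (a : Equiv.Perm α).support ⊆ O.orbit.toFinset := fun x hx => by
    rw [Set.mem_toFinset, MulAction.orbitRel.Quotient.mem_orbit]
    by_contra hne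
    exact Equiv.Perm.mem_support.1 hx (hfix x hne)
  have hne : (a : Equiv.Perm α) ≠ 1 := fun h => by
    have h' : a = 1 := Subtype.ext h
    subst h'
    have := congrFun ha O
    rw [Function.update_self] at this
    exact hy this.symm
  have hcard : (a : Equiv.Perm α).support.card = 2 := by
    refine le_antisymm ?_ (Equiv.Perm.two_le_card_support_of_ne_one hne)
    refine (Finset.card_le_card hsub).trans ?_
    rw [Set.toFinset_card, ← Nat.card_eq_fintype_card, hO]
  exact (Equiv.Perm.card_support_eq_two.1 hcard).sign_eq

/-- Even abelian groups on `3k + 8` points have order at most `16·3^k`. -/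
theorem card_le_of_even [DecidableEq α] (hA : IsMulCommutative A) (k : ℕ)
    (hα : Fintype.card α = 3 * k + 8) (hev : ∀ a ∈ A, Equiv.Perm.sign a = 1) :
    Nat.card A ≤ 16 * 3 ^ k := by
  by_cases h2 : 2 ∈ orbitCards A
  · have hle := card_le_prod A hA
    rcases hle.lt_or_eq with hlt | heq
    · have hb : (orbitCards A).prod ≤ maxProd (3 * k + 8) := by
        rw [← hα, ← sum_orbitCards A]; exact prod_le _
      rw [show 3 * k + 8 = 3 * (k + 2) + 2 by ring, maxProd_three_mul_add_two, pow_add] at hb
      obtain ⟨c, hc⟩ := card_dvd_prod A hA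
      rcases (show c = 0 ∨ c = 1 ∨ 2 ≤ c by omega) with rfl | rfl | hc2
      · rw [mul_zero] at hc; omega
      · omega
      · have := Nat.mul_le_mul_left (Nat.card A) hc2
        omega
    · obtain ⟨a, ha, hs⟩ := exists_sign_neg A hA heq h2
      rw [hev a ha] at hs
      exact absurd hs (by decide)
  · exact (card_le_prod A hA).trans (prod_le_of_two_notMem k _ ((sum_orbitCards A).trans hα) h2)

end CfsgLib.AbelianPerm
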