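import Cfsg.Agent.AbelianPerm.Bound
import Mathlib.Algebra.Group.Subgroup.Finite
import Mathlib.Logic.Equiv.Fin.Basic
import Mathlib.GroupTheory.Perm.Fin

/-!
Abelian permutation groups attaining the bounds.
-/

set_option autoImplicit false

namespace CfsgLib.AbelianPerm

/-- An abelian subgroup of `Sym(n)` of order `c`; even if `ev` holds. -/
def HasAbelian (ev : Prop) (n c : ℕ) : Prop :=
  ∃ A : Subgroup (Equiv.Perm (Fin n)), IsMulCommutative A ∧ Nat.card A = c ∧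
    (ev → ∀ a ∈ A, Equiv.Perm.sign a = 1)

theorem HasAbelian.add {ev : Prop} {m n c d : ℕ} (h1 : HasAbelian ev m c) (h2 : HasAbelian ev n d) :
    HasAbelian ev (m + n) (c * d) := by
  obtain ⟨A, hA, hAc, hAs⟩ := h1
  obtain ⟨B, hB, hBc, hBs⟩ := h2
  let e : Fin m ⊕ Fin n ≃ Fin (m + n) := finSumFinEquiv
  let f : Equiv.Perm (Fin m) × Equiv.Perm (Fin n) →* Equiv.Perm (Fin (m + n)) :=
    (e.permCongrHom.toMonoidHom).comp (Equiv.Perm.sumCongrHom (Fin m) (Fin n))
  have hf : Function.Injective f :=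
    e.permCongrHom.injective.comp Equiv.Perm.sumCongrHom_injective
  refine ⟨(A.prod B).map f, ⟨⟨fun x y => ?_⟩⟩, ?_, fun hev => ?_⟩
  · obtain ⟨u, hu, hu'⟩ := x.2
    obtain ⟨v, hv, hv'⟩ := y.2
    apply Subtype.ext
    show (x : Equiv.Perm (Fin (m + n))) * y = y * x
    rw [← hu', ← hv', ← map_mul, ← map_mul]
    refine congrArg f (Prod.ext ?_ ?_)
    · exact congrArg Subtype.val (hA.is_comm.comm ⟨u.1, hu.1⟩ ⟨v.1, hv.1⟩)
    · exact congrArg Subtype.val (hB.is_comm.comm ⟨u.2, hu.2⟩ ⟨v.2, hv.2⟩)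
  · rw [Subgroup.card_map_of_injective hf, Nat.card_congr (A.prodEquiv B).toEquiv, Nat.card_prod,
      hAc, hBc]
  · rintro _ ⟨⟨u, v⟩, ⟨hu, hv⟩, rfl⟩
    show Equiv.Perm.sign (e.permCongr (Equiv.Perm.sumCongr u v)) = 1
    rw [Equiv.Perm.sign_permCongr, Equiv.Perm.sign_sumCongr, hAs hev u hu, hBs hev v hv, one_mul]

theorem hasAbelian_zero (ev : Prop) : HasAbelian ev 0 1 :=
  ⟨⊥, inferInstance, Subgroup.card_bot, fun _ a ha => by rw [Subgroup.mem_bot.1 ha, map_one]⟩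

theorem hasAbelian_three (ev : Prop) : HasAbelian ev 3 3 := by
  refine ⟨Subgroup.zpowers (finRotate 3), inferInstance, ?_, fun _ a ha => ?_⟩
  · rw [Nat.card_zpowers]
    exact orderOf_eq_prime (by decide) (by decide)
  · obtain ⟨k, rfl⟩ := Subgroup.mem_zpowers_iff.1 ha
    rw [map_zpow, show Equiv.Perm.sign (finRotate 3) = 1 by rw [sign_finRotate]; decide, one_zpow]

theorem hasAbelian_two : HasAbelian False 2 2 := by
  refine ⟨Subgroup.zpowers (finRotate 2), inferInstance, ?_, fun h => h.elim⟩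
  rw [Nat.card_zpowers]
  exact orderOf_eq_prime (by decide) (by decide)

/-- The double transpositions of four points and the identity. -/
def four : Subgroup (Equiv.Perm (Fin 4)) where
  carrier := {s | s = 1 ∨ s = Equiv.swap 0 1 * Equiv.swap 2 3 ∨
    s = Equiv.swap 0 2 * Equiv.swap 1 3 ∨ s = Equiv.swap 0 3 * Equiv.swap 1 2}
  one_mem' := Or.inl rfl
  mul_mem' := by
    rintro a b (rfl | rfl | rfl | rfl) (rfl | rfl | rfl | rfl) <;> decide
  inv_mem' := by rintro a (rfl | rfl | rfl | rfl) <;> decide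

theorem hasAbelian_four (ev : Prop) : HasAbelian ev 4 4 := by
  refine ⟨four, ⟨⟨?_⟩⟩, ?_, fun _ => ?_⟩
  · rintro ⟨a, ha⟩ ⟨b, hb⟩
    apply Subtype.ext
    show a * b = b * a
    rcases ha with rfl | rfl | rfl | rfl <;> rcases hb with rfl | rfl | rfl | rfl <;> decide
  · have h : (four : Set (Equiv.Perm (Fin 4))) =
        ({1, Equiv.swap 0 1 * Equiv.swap 2 3, Equiv.swap 0 2 * Equiv.swap 1 3,
          Equiv.swap 0 3 * Equiv.swap 1 2} : Finset (Equiv.Perm (Fin 4))) := by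
      simp only [Finset.coe_insert, Finset.coe_singleton]
      rfl
    rw [← SetLike.coe_sort_coe, Nat.card_coe_set_eq, h, Set.ncard_coe_finset]
    decide
  · rintro a (rfl | rfl | rfl | rfl) <;> decide

theorem hasAbelian_pow_three (ev : Prop) (k : ℕ) : HasAbelian ev (3 * k) (3 ^ k) := by
  induction k with
  | zero => exact hasAbelian_zero ev
  | succ k ih =>
    rw [pow_succ, mul_add, mul_one]
    exact ih.add (hasAbelian_three ev)

theorem hasAbelian_four_mul (ev : Prop) (k : ℕ) : HasAbelian ev (3 * k + 4) (4 * 3 ^ k) := by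
  rw [mul_comm 4]
  exact (hasAbelian_pow_three ev k).add (hasAbelian_four ev)

theorem hasAbelian_two_mul (k : ℕ) : HasAbelian False (3 * k + 2) (2 * 3 ^ k) := by
  rw [mul_comm 2]
  exact (hasAbelian_pow_three False k).add hasAbelian_two

theorem hasAbelian_sixteen_mul (ev : Prop) (k : ℕ) : HasAbelian ev (3 * k + 8) (16 * 3 ^ k) := by
  rw [show 3 * k + 8 = 3 * k + 4 + 4 by ring, show 16 * 3 ^ k = 4 * 3 ^ k * 4 by ring]
  exact (hasAbelian_four_mul ev k).add (hasAbelian_four ev)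

theorem isGreatest_perm {n c : ℕ} (h : HasAbelian False n c) (hmax : maxProd n = c) :
    IsGreatest {d : ℕ | ∃ A : Subgroup (Equiv.Perm (Fin n)), IsMulCommutative A ∧ Nat.card A = d} c := by
  obtain ⟨A, hA, hc, -⟩ := h
  refine ⟨⟨A, hA, hc⟩, ?_⟩
  rintro d ⟨B, hB, rfl⟩
  exact (card_le_maxProd B hB).trans (by rw [Fintype.card_fin, hmax])

theorem isGreatest_alternating {n c : ℕ} (h : HasAbelian True n c)
    (hmax : ∀ B : Subgroup (Equiv.Perm (Fin n)), IsMulCommutative B →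
      (∀ b ∈ B, Equiv.Perm.sign b = 1) → Nat.card B ≤ c) :
    IsGreatest {d : ℕ | ∃ A : Subgroup (alternatingGroup (Fin n)), IsMulCommutative A ∧ Nat.card A = d} c := by
  obtain ⟨A, hA, hc, hs⟩ := h
  have hle : A ≤ alternatingGroup (Fin n) := fun a ha => Equiv.Perm.mem_alternatingGroup.2 (hs trivial a ha)
  refine ⟨⟨A.subgroupOf _, ⟨⟨fun x y => Subtype.ext (Subtype.ext ((congrArg Subtype.val
      (hA.is_comm.comm ⟨x.1.1, x.2⟩ ⟨y.1.1, y.2⟩) : x.1.1 * y.1.1 = y.1.1 * x.1.1)))⟩⟩,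
    (Nat.card_congr (Subgroup.subgroupOfEquivOfLe hle).toEquiv).trans hc⟩, ?_⟩
  rintro d ⟨B, hB, rfl⟩
  rw [← Subgroup.card_map_of_injective (f := (alternatingGroup (Fin n)).subtype) (Subgroup.subtype_injective _)]
  refine hmax _ ⟨⟨?_⟩⟩ ?_
  · rintro ⟨_, x, hx, rfl⟩ ⟨_, y, hy, rfl⟩
    exact Subtype.ext (congrArg (fun w : B => ((w : alternatingGroup (Fin n)) : Equiv.Perm (Fin n)))
      (hB.is_comm.comm ⟨x, hx⟩ ⟨y, hy⟩))
  · rintro _ ⟨x, -, rfl⟩
    exact Equiv.Perm.mem_alternatingGroup.1 x.2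

end CfsgLib.AbelianPerm
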